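import Mathlib.RingTheory.Etale.Locus
import Mathlib.RingTheory.Etale.Field
import Mathlib.RingTheory.Localization.Finiteness
import Mathlib.RingTheory.Localization.Integral
import Mathlib.RingTheory.Noetherian.Basic
import Mathlib.RingTheory.Polynomial.Basic
import Mathlib.FieldTheory.IsAlgClosed.Basic
import Mathlib.FieldTheory.Perfect
import Mathlib.RingTheory.Algebraic.Integral

/-!
# Finite extensions of domains of characteristic zero are étale over a nonempty open subset
-/

set_option autoImplicit false

universe u v

open Polynomial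

namespace Groth.Agent.Pi1.H418.EtaleAway

/-- A finite extension of domains of characteristic zero is étale at the generic point. -/
theorem isEtaleAt_bot (A B : Type u) [CommRing A] [IsDomain A] [CharZero A] [CommRing B] [IsDomain B]
    [Algebra A B] [Module.Finite A B] [FaithfulSMul A B] :
    (⟨⊥, Ideal.isPrime_bot⟩ : PrimeSpectrum B) ∈ Algebra.etaleLocus A B := by
  rw [Algebra.mem_etaleLocus_iff]
  change Algebra.FormallyEtale A (Localization.AtPrime (⊥ : Ideal B))
  have h0 : IsLocalization (nonZeroDivisors B)
      (Localization (Algebra.algebraMapSubmonoid B (nonZeroDivisors A))) := by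
    refine IsLocalization.of_le_of_exists_dvd (Algebra.algebraMapSubmonoid B (nonZeroDivisors A)) _ ?_ ?_
    · rintro _ ⟨a, ha, rfl⟩
      refine mem_nonZeroDivisors_of_ne_zero ?_
      rw [Ne, FaithfulSMul.algebraMap_eq_zero_iff]
      exact nonZeroDivisors.ne_zero ha
    · intro g hg
      obtain ⟨f, hf0, hf⟩ :=
        (Algebra.IsIntegral.isIntegral (R := A) g).isAlgebraic.exists_nonzero_dvd hg
      exact ⟨algebraMap A B f, ⟨f, mem_nonZeroDivisors_of_ne_zero hf0, rfl⟩, hf⟩
  let L := Localization (Algebra.algebraMapSubmonoid B (nonZeroDivisors A))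
  let K := FractionRing A
  have : IsFractionRing B L := h0
  let _ : Field L := IsFractionRing.toField B
  have : CharZero K := inferInstance
  have : Module.Finite K L := Module.Finite.of_isLocalization A B (nonZeroDivisors A)
  have : Algebra.IsAlgebraic K L := inferInstance
  have : Algebra.IsSeparable K L := inferInstance
  have h1 : Algebra.FormallyEtale K L := Algebra.FormallyEtale.of_isSeparable K L
  have h2 : Algebra.FormallyEtale A K := Algebra.FormallyEtale.of_isLocalization (nonZeroDivisors A)
  have h3 : Algebra.FormallyEtale A L := Algebra.FormallyEtale.comp A K L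
  have h4 : (⊥ : Ideal B).primeCompl = nonZeroDivisors B := by
    ext x
    simp [Ideal.primeCompl, mem_nonZeroDivisors_iff_ne_zero]
  have h5 : IsLocalization (nonZeroDivisors B) (Localization.AtPrime (⊥ : Ideal B)) := by
    rw [← h4]
    infer_instance
  exact Algebra.FormallyEtale.of_equiv
    ((IsLocalization.algEquiv (nonZeroDivisors B) L
      (Localization.AtPrime (⊥ : Ideal B))).restrictScalars A)

theorem exists_basicOpen_subset (A B : Type u) [CommRing A] [IsDomain A] [IsNoetherianRing A]
    [CharZero A] [CommRing B] [IsDomain B] [Algebra A B] [Module.Finite A B] [FaithfulSMul A B] :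
    ∃ f : A, f ≠ 0 ∧
      (PrimeSpectrum.basicOpen (algebraMap A B f) : Set (PrimeSpectrum B)) ⊆ Algebra.etaleLocus A B := by
  have : Algebra.FinitePresentation A B := Algebra.FinitePresentation.of_finiteType.mp inferInstance
  obtain ⟨_, ⟨_, ⟨g, rfl⟩, rfl⟩, hg, hg'⟩ :=
    PrimeSpectrum.isBasis_basic_opens.exists_subset_of_mem_open (isEtaleAt_bot A B)
      Algebra.isOpen_etaleLocus
  have hg0 : g ≠ 0 := fun h => hg (by rw [h]; exact Ideal.zero_mem _)
  obtain ⟨f, hf0, hf⟩ := (Algebra.IsIntegral.isIntegral (R := A) g).isAlgebraic.exists_nonzero_dvd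
    (mem_nonZeroDivisors_of_ne_zero hg0)
  refine ⟨f, hf0, subset_trans ?_ hg'⟩
  intro x hx hx'
  exact hx (Ideal.mem_of_dvd _ hf hx')

/-- The product of the linear polynomials `X - b`, `b ∈ s`. -/
noncomputable def lin {K : Type u} [Field K] (s : Finset K) : K[X] := ∏ b ∈ s, (X - C b)

lemma lin_ne_zero {K : Type u} [Field K] (s : Finset K) : lin s ≠ 0 :=
  Finset.prod_ne_zero_iff.mpr fun b _ => X_sub_C_ne_zero b

lemma exists_dvd_lin_pow {K : Type u} [Field K] [IsAlgClosed K] (f : K[X]) (hf : f ≠ 0) :
    ∃ (s : Finset K) (n : ℕ), f ∣ lin s ^ n := by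
  classical
  refine ⟨f.roots.toFinset, f.natDegree, ?_⟩
  have h1 : f ∣ (f.roots.map fun a => X - C a).prod := by
    conv_lhs => rw [(IsAlgClosed.splits f).eq_prod_roots]
    have hu : IsUnit (C f.leadingCoeff) := by
      rw [isUnit_C]
      exact (leadingCoeff_ne_zero.mpr hf).isUnit
    rw [hu.mul_left_dvd]
  refine h1.trans ?_
  have h2 : ∀ (m : Multiset K), (m.map fun a => X - C a).prod ∣ lin m.toFinset ^ (Multiset.card m) := by
    intro m
    rw [Finset.prod_multiset_map_count, lin, ← Finset.prod_pow]
    exact Finset.prod_dvd_prod_of_dvd _ _ fun a _ => pow_dvd_pow _ (Multiset.count_le_card a m)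
  refine (h2 f.roots).trans (pow_dvd_pow _ (card_roots' f))

theorem exists_lin (K : Type u) [Field K] [IsAlgClosed K] [CharZero K] (B : Type u) [CommRing B] [IsDomain B]
    [Algebra K[X] B] [Module.Finite K[X] B] [FaithfulSMul K[X] B] :
    ∃ (s : Finset K) (B' : Type u) (_ : CommRing B') (_ : Algebra B B')
      (_ : IsLocalization.Away (algebraMap K[X] B (lin s)) B')
      (_ : Algebra (Localization.Away (lin s)) B'),
      Module.Finite (Localization.Away (lin s)) B' ∧ Algebra.Etale (Localization.Away (lin s)) B' := by
  obtain ⟨f, hf0, hf⟩ := exists_basicOpen_subset K[X] B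
  obtain ⟨s, n, hs⟩ := exists_dvd_lin_pow f hf0
  have : Algebra.FinitePresentation K[X] B := Algebra.FinitePresentation.of_finiteType.mp inferInstance
  let B' := Localization (Algebra.algebraMapSubmonoid B (Submonoid.powers (lin s)))
  have h1 : Algebra.algebraMapSubmonoid B (Submonoid.powers (lin s)) =
      Submonoid.powers (algebraMap K[X] B (lin s)) := by
    rw [Algebra.algebraMapSubmonoid_powers]
  have h2 : IsLocalization.Away (algebraMap K[X] B (lin s)) B' := by
    rw [IsLocalization.Away, ← h1]
    infer_instance
  have h3 : Algebra.Etale K[X] (Localization.Away (algebraMap K[X] B (lin s))) := by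
    rw [← Algebra.basicOpen_subset_etaleLocus_iff_etale]
    refine subset_trans ?_ hf
    intro x hx hx'
    refine hx ?_
    have h4 : (algebraMap K[X] B (lin s)) ^ n ∈ x.asIdeal := by
      rw [← map_pow]
      exact Ideal.mem_of_dvd _ (map_dvd (algebraMap K[X] B) hs) hx'
    exact x.isPrime.mem_of_pow_mem n h4
  have h5 : Algebra.Etale K[X] B' := Algebra.Etale.of_equiv
    ((IsLocalization.algEquiv (Submonoid.powers (algebraMap K[X] B (lin s)))
      (Localization.Away (algebraMap K[X] B (lin s))) B').restrictScalars K[X])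
  refine ⟨s, B', inferInstance, inferInstance, h2, inferInstance, ?_, ?_⟩
  · exact Module.Finite.of_isLocalization K[X] B (Submonoid.powers (lin s))
  · exact Algebra.Etale.of_restrictScalars K[X] (Localization.Away (lin s)) B'

end Groth.Agent.Pi1.H418.EtaleAway
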